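import Mathlib
import Cfsg.Agent.Lib.Helper24.ES3.Defs

set_option autoImplicit false

namespace Cfsg.Agent.Lib.Helper24.ES3

variable {G : Type*} [Group G]

/-- taking `k`-th powers is invertible on elements of order dividing `p` when `p ∤ k` -/
theorem aux4_pow_inv {p : ℕ} [Fact p.Prime] {x : G} (hx : x ^ p = 1) {k : ℕ} (hk : ¬ p ∣ k) :
    ∃ k' : ℕ, (x ^ k) ^ k' = x := by
  have hp : p.Prime := Fact.out
  have hcop : Nat.Coprime k p := ((Nat.Prime.coprime_iff_not_dvd hp).2 hk).symm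
  obtain ⟨m, -, hm⟩ := Nat.exists_mul_mod_eq_one_of_coprime hcop hp.one_lt
  refine ⟨m, ?_⟩
  have h1 := Nat.mod_add_div (k * m) p
  rw [← pow_mul, ← h1, hm, pow_add, pow_one, pow_mul, hx, one_pow, mul_one]

theorem aux4_pow_eq_one_of_dvd {p : ℕ} {x : G} (hx : x ^ p = 1) {k : ℕ} (hk : p ∣ k) :
    x ^ k = 1 := by
  obtain ⟨t, rfl⟩ := hk
  rw [pow_mul, hx, one_pow]

end Cfsg.Agent.Lib.Helper24.ES3
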