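import Mathlib
import Cfsg.Prelude.Def_Transfer
import Cfsg.Agent.Lib.Helper24.ES3.Defs
import Cfsg.Agent.Lib.Helper4.ES3.PowInv
import Cfsg.Agent.Lib.Helper2.ES3.A3
import Cfsg.Agent.Lib.Helper53.ES3.C1
import Cfsg.Agent.Lib.Helper24.ES3.C3

set_option autoImplicit false

namespace Cfsg.Agent.Lib.Helper24.ES3

variable {G : Type*} [Group G]

/-- C4 -/
theorem key [Finite G] {p : ℕ} [Fact p.Prime] (P : Sylow p G) {z : G}
    (h : Dat p (P : Subgroup G) z) {w : G} (hw : w ∈ (P : Subgroup G)) (hwz : ∀ k : ℕ, w ≠ z ^ k)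
    (hH : HW p z w) {a a' : ℕ} (haa : a * a' ≡ 1 [MOD p]) :
    ∃ n ∈ Subgroup.normalizer ((P : Subgroup G) : Set G),
      n * z * n⁻¹ = z ^ a ∧ n * w * n⁻¹ = w ^ a' := by
  obtain ⟨g, e, he, hgw, hgz⟩ := hH
  have hwp : w ^ p = 1 := h.exp w hw
  obtain ⟨e', he'⟩ := aux4_pow_inv hwp he
  have hw' : w ^ e ∈ (P : Subgroup G) := Subgroup.pow_mem _ hw e
  have hwz' : ∀ k : ℕ, w ^ e ≠ z ^ k := by
    intro k hk
    apply hwz (k * e')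
    rw [pow_mul, ← hk, he']
  obtain ⟨y, hy, hyw⟩ := exists_conj h hw' hwz'
  have hyz : y * z * y⁻¹ = z := by rw [h.zc y hy, mul_inv_cancel_right]
  have hgw' : g * w ^ e * g⁻¹ = w ^ e := by rw [← conj_pow, hgw]
  obtain ⟨d, hdz, hdw⟩ := diag (p := p) (h.zc _ hw').symm (h.exp z h.zP) (h.exp _ hw') hyz hyw
    hgw' hgz haa
  obtain ⟨c, hcz, hcw, hcd⟩ := sylow_step P h hw' hwz' haa hdz hdw
  refine ⟨c⁻¹ * d, hcd, ?_, ?_⟩
  · have h1 : c⁻¹ * d * z * (c⁻¹ * d)⁻¹ = c⁻¹ * (d * z * d⁻¹) * c := by group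
    have hc : Commute c z := hcz
    rw [h1, hdz]
    have h2 : Commute c (z ^ a) := hc.pow_right a
    rw [mul_assoc, ← h2.eq, inv_mul_cancel_left]
  · have h1 : c⁻¹ * d * (w ^ e) * (c⁻¹ * d)⁻¹ = (w ^ e) ^ a' := by
      have h1 : c⁻¹ * d * (w ^ e) * (c⁻¹ * d)⁻¹ = c⁻¹ * (d * (w ^ e) * d⁻¹) * c := by group
      have hc : Commute c (w ^ e) := hcw
      rw [h1, hdw]
      have h2 : Commute c ((w ^ e) ^ a') := hc.pow_right a'
      rw [mul_assoc, ← h2.eq, inv_mul_cancel_left]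
    calc c⁻¹ * d * w * (c⁻¹ * d)⁻¹ = c⁻¹ * d * ((w ^ e) ^ e') * (c⁻¹ * d)⁻¹ := by rw [he']
      _ = (c⁻¹ * d * (w ^ e) * (c⁻¹ * d)⁻¹) ^ e' := by rw [conj_pow]
      _ = ((w ^ e) ^ a') ^ e' := by rw [h1]
      _ = ((w ^ e) ^ e') ^ a' := by rw [← pow_mul (w ^ e), ← pow_mul (w ^ e), mul_comm a' e']
      _ = w ^ a' := by rw [he']

end Cfsg.Agent.Lib.Helper24.ES3
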