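import Mathlib
import Cfsg.Prelude.Def_Transfer
import Cfsg.Agent.Lib.Helper24.ES3.Defs
import Cfsg.Agent.Lib.Helper54.ES3.A5
import Cfsg.Agent.Lib.Helper37.ES3.E1

set_option autoImplicit false

namespace Cfsg.Agent.Lib.Helper24.ES3

variable {G : Type*} [Group G]

/-- E2 -/
theorem hw_of_SL [Finite G] {p : ℕ} [Fact p.Prime] {P : Subgroup G} {z : G} (h : Dat p P z)
    {A : Subgroup G} (hAP : A ≤ P) (hA : Nat.card A = p ^ 2)
    (hSL : ∀ φ : MulAut ↥A, orderOf φ = p → ∃ g : G, ∀ a : ↥A, (φ a : G) = g * (a : G) * g⁻¹) :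
    ∃ w ∈ A, (∀ k : ℕ, w ≠ z ^ k) ∧ HW p z w := by
  have hp : p.Prime := Fact.out
  have hz : z ∈ A := z_mem_of_card_sq h hAP hA
  have hzp : z ^ p = 1 := h.exp z h.zP
  obtain ⟨w, hw, hwz⟩ : ∃ w ∈ A, ∀ k : ℕ, w ≠ z ^ k := by
    by_contra hcon
    push Not at hcon
    have h1 : A ≤ Subgroup.zpowers z := by
      intro x hx
      obtain ⟨k, hk⟩ := hcon x hx
      rw [hk]
      exact Subgroup.pow_mem _ (Subgroup.mem_zpowers z) k
    have h2 := Subgroup.card_le_of_le h1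
    rw [hA, Nat.card_zpowers] at h2
    have h3 : orderOf z ≤ p := Nat.le_of_dvd hp.pos (orderOf_dvd_of_pow_eq_one hzp)
    have h4 : p * 2 ≤ p * p := Nat.mul_le_mul_left p hp.two_le
    have h5 : p ^ 2 = p * p := sq p
    have := hp.pos
    omega
  have hgen := mem_of_card_sq h hAP hA hz hw hwz
  obtain ⟨φ, hφ, hφz, hφw⟩ := exists_transvection (p := p) hz hw hzp (h.exp w (hAP hw))
    (h.zc w (hAP hw)).symm h.z1 hwz hgen
  obtain ⟨g, hg⟩ := hSL φ hφ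
  refine ⟨w, hw, hwz, g, 1, ?_, ?_, ?_⟩
  · intro h1
    exact hp.one_lt.ne' (Nat.dvd_one.1 h1)
  · exact (hg ⟨w, hw⟩).symm.trans hφw
  · rw [pow_one]
    exact (hg ⟨z, hz⟩).symm.trans hφz

end Cfsg.Agent.Lib.Helper24.ES3
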