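import Mathlib
import Cfsg.Prelude.Def_Transfer
import Cfsg.Agent.Lib.Helper24.ES3.Defs
import Cfsg.Agent.Lib.Helper4.ES3.PowInv
import Cfsg.Agent.Lib.Helper2.ES3.A3
import Cfsg.Agent.Lib.Helper53.ES3.C2

set_option autoImplicit false

namespace Cfsg.Agent.Lib.Helper24.ES3

variable {G : Type*} [Group G]

/-- F1 -/
theorem hw_of_conj [Finite G] {p : ℕ} [Fact p.Prime] (P : Sylow p G) {z : G}
    (h : Dat p (P : Subgroup G) z)
    (hconj : ∀ x ∈ (P : Subgroup G), ∀ y ∈ (P : Subgroup G), x ≠ 1 → y ≠ 1 →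
      ∃ g : G, g * x * g⁻¹ = y)
    {w : G} (hw : w ∈ (P : Subgroup G)) (hwz : ∀ k : ℕ, w ≠ z ^ k) : HW p z w := by
  have hp : p.Prime := Fact.out
  have hw1 : w ≠ 1 := by
    intro h1
    exact hwz 0 (by rw [h1, pow_zero])
  have hwp : w ^ p = 1 := h.exp w hw
  obtain ⟨g0, hg0⟩ := hconj w hw z h.zP hw1 h.z1
  have hPK : (P : Subgroup G) ≤ Subgroup.centralizer {z} := by
    intro x hx
    rw [Subgroup.mem_centralizer_singleton_iff]
    exact h.zc x hx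
  have hqK : g0 * z * g0⁻¹ ∈ Subgroup.centralizer {z} := by
    rw [Subgroup.mem_centralizer_singleton_iff]
    have h1 : g0 * z * g0⁻¹ * (g0 * w * g0⁻¹) = g0 * (z * w) * g0⁻¹ := by group
    have h2 : g0 * w * g0⁻¹ * (g0 * z * g0⁻¹) = g0 * (w * z) * g0⁻¹ := by group
    have h3 : g0 * z * g0⁻¹ * (g0 * w * g0⁻¹) = g0 * w * g0⁻¹ * (g0 * z * g0⁻¹) := by
      rw [h1, h2, h.zc w hw]
    rw [hg0] at h3
    exact h3
  have hqp : (g0 * z * g0⁻¹) ^ p = 1 := by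
    rw [conj_pow, h.exp z h.zP, mul_one, mul_inv_cancel]
  obtain ⟨c, hcK, hcq⟩ := psub_conj_in P _ hPK _ hqK hqp
  have hcz : c * z = z * c := Subgroup.mem_centralizer_singleton_iff.1 hcK
  have hg1w : (c * g0) * w * (c * g0)⁻¹ = z := by
    have h1 : (c * g0) * w * (c * g0)⁻¹ = c * (g0 * w * g0⁻¹) * c⁻¹ := by group
    rw [h1, hg0, hcz, mul_inv_cancel_right]
  have hz1P : (c * g0) * z * (c * g0)⁻¹ ∈ (P : Subgroup G) := by
    have h1 : (c * g0) * z * (c * g0)⁻¹ = c * (g0 * z * g0⁻¹) * c⁻¹ := by group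
    rw [h1]
    exact hcq
  have hz1z : ∀ k : ℕ, (c * g0) * z * (c * g0)⁻¹ ≠ z ^ k := by
    intro k hk
    have h1 : z = w ^ k := by
      have h2 : (c * g0) * z * (c * g0)⁻¹ = (c * g0) * w ^ k * (c * g0)⁻¹ := by
        rw [hk, ← conj_pow, hg1w]
      exact mul_left_cancel (mul_right_cancel h2)
    have hk' : ¬ p ∣ k := by
      intro hd
      exact h.z1 (by rw [h1, aux4_pow_eq_one_of_dvd hwp hd])
    obtain ⟨k', hk''⟩ := aux4_pow_inv hwp hk'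
    exact hwz k' (by rw [h1, hk''])
  obtain ⟨y, hy, hyz1⟩ := exists_conj h hz1P hz1z
  have hyz : y * z * y⁻¹ = z := by rw [h.zc y hy, mul_inv_cancel_right]
  refine ⟨(c * g0)⁻¹ * y * (c * g0), 1, ?_, ?_, ?_⟩
  · intro h1
    exact hp.one_lt.ne' (Nat.dvd_one.1 h1)
  · have h1 : (c * g0)⁻¹ * y * (c * g0) * w * ((c * g0)⁻¹ * y * (c * g0))⁻¹ =
        (c * g0)⁻¹ * (y * ((c * g0) * w * (c * g0)⁻¹) * y⁻¹) * (c * g0) := by group
    rw [h1, hg1w, hyz, ← hg1w]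
    group
  · have h1 : (c * g0)⁻¹ * y * (c * g0) * z * ((c * g0)⁻¹ * y * (c * g0))⁻¹ =
        (c * g0)⁻¹ * (y * ((c * g0) * z * (c * g0)⁻¹) * y⁻¹) * (c * g0) := by group
    rw [h1, hyz1, pow_one]
    nth_rewrite 2 [← hg1w]
    group

end Cfsg.Agent.Lib.Helper24.ES3
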